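import Mathlib

set_option autoImplicit false

/-! Minimal Frobenius groups `V : C_q` with `V` an elementary abelian `r`-group. -/

namespace CfsgLib.MinFrob

open Polynomial

variable {K : Type} [Field K]

/-- Multiplication by units on the additive group. -/
def act (C : Subgroup Kˣ) : C →* MulAut (Multiplicative K) where
  toFun u :=
    { toFun := fun v => Multiplicative.ofAdd (((u : Kˣ) : K) * v.toAdd)
      invFun := fun v => Multiplicative.ofAdd ((((u : Kˣ)⁻¹ : Kˣ) : K) * v.toAdd)
      left_inv := fun v => by simp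
      right_inv := fun v => by simp
      map_mul' := fun v w => by simp [mul_add] }
  map_one' := by ext v; simp
  map_mul' := fun u w => by ext v; simp [mul_assoc]

theorem act_apply (C : Subgroup Kˣ) (u : C) (v : Multiplicative K) :
    act C u v = Multiplicative.ofAdd (((u : Kˣ) : K) * v.toAdd) := rfl

open SemidirectProduct

theorem eq_inl {C : Subgroup Kˣ} (x : Multiplicative K ⋊[act C] C) (h : x.right = 1) : x = inl x.left :=
  SemidirectProduct.ext rfl (by rw [h]; rfl)

theorem conj_inl {C : Subgroup Kˣ} (x : Multiplicative K ⋊[act C] C) (v : Multiplicative K) :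
    x * inl v * x⁻¹ = inl (act C x.right v) := by
  refine SemidirectProduct.ext ?_ (by simp)
  simp [mul_comm]

/-- For distinct primes `r`, `q` there is a group with element orders `1, r, q` all whose proper
sections have fewer orders. -/
theorem exists_group (r q : ℕ) [Fact r.Prime] [Fact q.Prime] (hrq : r ≠ q) :
    ∃ (F : Type) (_ : Group F) (_ : Fintype F),
      Set.range (orderOf : F → ℕ) = {m | m = 1 ∨ m = r ∨ m = q} ∧
      (∀ H : Subgroup F, (∃ x ∈ H, orderOf x = r) → (∃ x ∈ H, orderOf x = q) → H = ⊤) ∧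
      (∀ N : Subgroup F, N.Normal → N ≠ ⊥ → ¬ r ∣ N.index) ∧
      Subgroup.center F = ⊥ ∧
      (∀ x y : F, x ^ r = 1 → y ^ r = 1 → (x * y) ^ r = 1) ∧
      (∃ x y : F, x ^ q = 1 ∧ y ^ q = 1 ∧ (x * y) ^ q ≠ 1) := by
  classical
  have hr : r.Prime := Fact.out
  have hq : q.Prime := Fact.out
  have hdeg : 0 < (cyclotomic q (ZMod r)).natDegree := by
    rw [natDegree_cyclotomic]; exact Nat.totient_pos.2 hq.pos
  obtain ⟨f, hf, hfd⟩ := WfDvdMonoid.exists_irreducible_factor
    (Polynomial.not_isUnit_of_natDegree_pos _ hdeg) (cyclotomic_ne_zero q (ZMod r))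
  haveI : Fact (Irreducible f) := ⟨hf⟩
  let K := AdjoinRoot f
  haveI : Module.Finite (ZMod r) K := (AdjoinRoot.powerBasis hf.ne_zero).finite
  haveI : Finite K := Module.finite_of_finite (ZMod r)
  haveI : CharP K r := charP_of_injective_algebraMap (algebraMap (ZMod r) K).injective r
  set ζ : K := AdjoinRoot.root f with hζ
  haveI : NeZero ((q : ℕ) : K) := ⟨fun h => hrq
    ((Nat.prime_dvd_prime_iff_eq hr hq).1 ((CharP.cast_eq_zero_iff K r q).1 h))⟩
  have hprim : IsPrimitiveRoot ζ q := by
    rw [← isRoot_cyclotomic_iff, ← map_cyclotomic q (AdjoinRoot.of f), IsRoot.def, eval_map]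
    obtain ⟨g, hg⟩ := hfd
    rw [hg, eval₂_mul, hζ, AdjoinRoot.eval₂_root, zero_mul]
  set ζu : Kˣ := (hprim.isUnit hq.ne_zero).unit with hζu
  have hζv : (ζu : K) = ζ := IsUnit.unit_spec _
  set C : Subgroup Kˣ := Subgroup.zpowers ζu with hC
  have hord : orderOf ζu = q := by
    rw [← orderOf_units, hζv]; exact hprim.eq_orderOf.symm
  have hCcard : Nat.card C = q := by rw [hC, Nat.card_zpowers, hord]
  haveI : Finite (Multiplicative K ⋊[act C] C) := Finite.of_equiv _ SemidirectProduct.equivProd.symm
  haveI : IsMulCommutative C := ⟨⟨fun x y => mul_comm x y⟩⟩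
  let ζC : C := ⟨ζu, Subgroup.mem_zpowers _⟩
  have hζC : orderOf ζC = q := by rw [← Subgroup.orderOf_coe]; exact hord
  have hone : ∀ u : C, u ≠ 1 → ((u : Kˣ) : K) ≠ 1 := fun u hu h =>
    hu (Subtype.ext (Units.ext h))
  have hVr : ∀ v : Multiplicative K, v ^ r = 1 := fun v => by
    apply Multiplicative.toAdd.injective
    rw [toAdd_pow, toAdd_one, nsmul_eq_mul, CharP.cast_eq_zero, zero_mul]
  have hgenC : ∀ u : C, u ≠ 1 → ∀ w : C, w ∈ Subgroup.zpowers u := by
    intro u hu w
    haveI : Fact q.Prime := ⟨hq⟩
    exact mem_zpowers_of_prime_card hCcard hu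
  have hqpow : ∀ x : Multiplicative K ⋊[act C] C, x.right ≠ 1 → x ^ q = 1 := by
    intro x hx
    have h1 : (x ^ q).right = 1 := by
      show rightHom (x ^ q) = 1
      rw [map_pow, ← hCcard, pow_card_eq_one']
    have h2 : x * x ^ q * x⁻¹ = x ^ q := by rw [← pow_succ', pow_succ, mul_inv_cancel_right]
    rw [eq_inl _ h1, conj_inl] at h2
    have h3 := congrArg Multiplicative.toAdd (inl_injective h2)
    rw [act_apply, toAdd_ofAdd] at h3
    have h4 : Multiplicative.toAdd (x ^ q).left = 0 := by
      by_contra hne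
      exact hone _ hx (by
        have := mul_right_cancel₀ hne (h3.trans (one_mul _).symm)
        exact this)
    rw [eq_inl _ h1, show (x ^ q).left = 1 from Multiplicative.toAdd.injective h4, map_one]
  have hrpow : ∀ x : Multiplicative K ⋊[act C] C, x.right = 1 → x ^ r = 1 := by
    intro x hx
    rw [eq_inl x hx, ← map_pow, hVr, map_one]
  have hright : ∀ x : Multiplicative K ⋊[act C] C, x ^ r = 1 → x.right = 1 := by
    intro x hx
    have h1 : x.right ^ r = 1 := by
      show (rightHom x) ^ r = 1
      rw [← map_pow, hx, map_one]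
    apply orderOf_eq_one_iff.1
    refine Nat.eq_one_of_dvd_coprimes ((Nat.coprime_primes hr hq).2 hrq) (orderOf_dvd_of_pow_eq_one h1) ?_
    have := orderOf_dvd_natCard x.right
    rwa [hCcard] at this
  -- subgroups invariant under a non-trivial element of C
  have hfull : ∀ (H : Subgroup (Multiplicative K ⋊[act C] C)) (u : C), u ≠ 1 →
      (∀ v, (inl v : Multiplicative K ⋊[act C] C) ∈ H → inl (act C u v) ∈ H) →
      ∀ w : Multiplicative K, w ≠ 1 → (inl w : Multiplicative K ⋊[act C] C) ∈ H →
      ∀ v : Multiplicative K, (inl v : Multiplicative K ⋊[act C] C) ∈ H := by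
    intro H u hu hinv w hw hwH
    have hiter : ∀ (n : ℕ) (v : Multiplicative K), (inl v : Multiplicative K ⋊[act C] C) ∈ H →
        inl (act C (u ^ n) v) ∈ H := by
      intro n
      induction n with
      | zero => intro v hv; simpa using hv
      | succ n ih =>
        intro v hv
        rw [pow_succ, map_mul, MulAut.mul_apply]
        exact ih _ (hinv v hv)
    obtain ⟨n, hn⟩ := (mem_powers_iff_mem_zpowers).2 (hgenC u hu ζC)
    have hmulζ : ∀ k : K, (inl (Multiplicative.ofAdd k) : Multiplicative K ⋊[act C] C) ∈ H →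
        inl (Multiplicative.ofAdd (ζ * k)) ∈ H := by
      intro k hk
      have := hiter n _ hk
      have hn' : u ^ n = ζC := hn
      rw [hn', act_apply, toAdd_ofAdd, show (((ζC : C) : Kˣ) : K) = ζ from hζv] at this
      exact this
    have hall : ∀ k : K, (inl (Multiplicative.ofAdd (k * w.toAdd)) : Multiplicative K ⋊[act C] C) ∈ H := by
      intro k
      induction k using AdjoinRoot.induction_on with
      | ih g =>
        induction g using Polynomial.induction_on' with
        | add g1 g2 h1 h2 =>
          rw [map_add, add_mul, ofAdd_add, map_mul]; exact mul_mem h1 h2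
        | monomial n a =>
          rw [← C_mul_X_pow_eq_monomial, map_mul (AdjoinRoot.mk f), map_pow (AdjoinRoot.mk f), AdjoinRoot.mk_X, AdjoinRoot.mk_C, ← hζ]
          have hpow : ∀ m : ℕ, (inl (Multiplicative.ofAdd (ζ ^ m * w.toAdd)) :
              Multiplicative K ⋊[act C] C) ∈ H := by
            intro m
            induction m with
            | zero => simpa using hwH
            | succ m ih =>
              rw [pow_succ', mul_assoc]
              exact hmulζ _ ih
          rw [← ZMod.natCast_zmod_val a, map_natCast, mul_assoc, ← nsmul_eq_mul, ofAdd_nsmul, map_pow]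
          exact pow_mem (hpow n) _
    intro v
    have hw0 : w.toAdd ≠ 0 := fun h => hw (Multiplicative.toAdd.injective h)
    have := hall (v.toAdd * (w.toAdd)⁻¹)
    rwa [mul_assoc, inv_mul_cancel₀ hw0, mul_one, ofAdd_toAdd] at this
  refine ⟨Multiplicative K ⋊[act C] C, inferInstance, Fintype.ofFinite _, ?_, ?_, ?_, ?_, ?_, ?_⟩
  · ext m
    constructor
    · rintro ⟨x, rfl⟩
      by_cases hx : x.right = 1
      · rcases (Nat.dvd_prime hr).1 (orderOf_dvd_of_pow_eq_one (hrpow x hx)) with h | h
        · exact Or.inl h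
        · exact Or.inr (Or.inl h)
      · rcases (Nat.dvd_prime hq).1 (orderOf_dvd_of_pow_eq_one (hqpow x hx)) with h | h
        · exact Or.inl h
        · exact Or.inr (Or.inr h)
    · rintro (rfl | rfl | rfl)
      · exact ⟨1, orderOf_one⟩
      · refine ⟨inl (Multiplicative.ofAdd 1), orderOf_eq_prime ?_ ?_⟩
        · rw [← map_pow, hVr, map_one]
        · intro h
          have := congrArg Multiplicative.toAdd (inl_injective (h.trans inl.map_one.symm))
          simp at this
      · exact ⟨inr ζC, by rw [orderOf_injective _ inr_injective, hζC]⟩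
  · rintro H ⟨y, hy, hyo⟩ ⟨x, hx, hxo⟩
    have hy1 : y.right = 1 := hright y (by have := pow_orderOf_eq_one y; rwa [hyo] at this)
    have hx1 : x.right ≠ 1 := by
      intro h
      have := orderOf_dvd_of_pow_eq_one (hrpow x h)
      rw [hxo] at this
      exact hrq ((Nat.prime_dvd_prime_iff_eq hq hr).1 this).symm
    have hV := hfull H x.right hx1 (fun v hv => by
      rw [← conj_inl]; exact mul_mem (mul_mem hx hv) (inv_mem hx)) y.left (fun h => by
        rw [eq_inl y hy1, h, map_one, orderOf_one] at hyo; exact hr.one_lt.ne hyo)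
      (eq_inl y hy1 ▸ hy)
    have hxr : (inr x.right : Multiplicative K ⋊[act C] C) ∈ H := by
      have h1 := mul_mem (inv_mem (hV x.left)) hx
      rwa [show (inl x.left)⁻¹ * x = inr x.right from
        inv_mul_eq_iff_eq_mul.2 (inl_left_mul_inr_right x).symm] at h1
    rw [eq_top_iff]
    intro g _
    rw [← inl_left_mul_inr_right g]
    refine mul_mem (hV _) ?_
    obtain ⟨k, hk⟩ := Subgroup.mem_zpowers_iff.1 (hgenC _ hx1 g.right)
    rw [← hk, map_zpow]
    exact zpow_mem hxr k
  · intro N hN hbot hdvd
    obtain ⟨n, hn⟩ := (Subgroup.ne_bot_iff_exists_ne_one).1 hbot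
    have hn' : (n : Multiplicative K ⋊[act C] C) ≠ 1 := fun h => hn (Subtype.ext h)
    have hw : ∃ w : Multiplicative K, w ≠ 1 ∧ (inl w : Multiplicative K ⋊[act C] C) ∈ N := by
      by_cases h : (n : Multiplicative K ⋊[act C] C).right = 1
      · refine ⟨_, fun hl => hn' ?_, eq_inl _ h ▸ n.2⟩
        rw [eq_inl _ h, hl, map_one]
      · set w := Multiplicative.ofAdd (1 : K)
        refine ⟨act C (n : Multiplicative K ⋊[act C] C).right w * w⁻¹, ?_, ?_⟩
        · intro h'
          have := congrArg Multiplicative.toAdd h'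
          rw [toAdd_mul, toAdd_inv, toAdd_one, act_apply, toAdd_ofAdd, toAdd_ofAdd, mul_one,
            ← sub_eq_add_neg, sub_eq_zero] at this
          exact hone _ h this
        · rw [map_mul, map_inv, ← conj_inl, mul_assoc _ _ (inl w)⁻¹, mul_assoc]
          refine mul_mem n.2 ?_
          rw [← mul_assoc]
          exact hN.conj_mem _ (inv_mem n.2) _
    obtain ⟨w, hw1, hwN⟩ := hw
    have hζne : ζC ≠ 1 := fun h => by rw [h, orderOf_one] at hζC; exact hq.one_lt.ne hζC
    have hV := hfull N ζC hζne (fun v hv => by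
      have := hN.conj_mem _ hv (inr ζC)
      rwa [conj_inl, right_inr] at this) w hw1 hwN
    have hle : (rightHom : Multiplicative K ⋊[act C] C →* C).ker ≤ N := fun g hg => by
      rw [eq_inl g hg]; exact hV _
    have h1 := Subgroup.index_dvd_of_le hle
    rw [Subgroup.index_ker, MonoidHom.range_eq_top.2 rightHom_surjective, Subgroup.card_top, hCcard] at h1
    exact hrq ((Nat.prime_dvd_prime_iff_eq hr hq).1 (hdvd.trans h1))
  · rw [Subgroup.eq_bot_iff_forall]
    intro g hg
    rw [Subgroup.mem_center_iff] at hg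
    have h1 : g.right = 1 := by
      by_contra h
      have := hg (inl (Multiplicative.ofAdd 1))
      have h2 : g * inl (Multiplicative.ofAdd 1) * g⁻¹ = inl (Multiplicative.ofAdd 1) := by
        rw [← this, mul_inv_cancel_right]
      rw [conj_inl] at h2
      have h3 := congrArg Multiplicative.toAdd (inl_injective h2)
      rw [act_apply, toAdd_ofAdd, toAdd_ofAdd, mul_one] at h3
      exact hone _ h h3
    have h2 : inr ζC * g * (inr ζC)⁻¹ = g := by rw [hg (inr ζC), mul_inv_cancel_right]
    rw [eq_inl g h1, conj_inl, right_inr] at h2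
    have h3 := congrArg Multiplicative.toAdd (inl_injective h2)
    rw [act_apply, toAdd_ofAdd] at h3
    have h4 : Multiplicative.toAdd g.left = 0 := by
      by_contra hne
      refine hone ζC (fun h => ?_) (mul_right_cancel₀ hne (h3.trans (one_mul _).symm))
      rw [h, orderOf_one] at hζC; exact hq.one_lt.ne hζC
    rw [eq_inl g h1, show g.left = 1 from Multiplicative.toAdd.injective h4, map_one]
  · intro x y hx hy
    exact hrpow _ (by rw [mul_right, hright x hx, hright y hy, mul_one])
  · have hζne : ζC ≠ 1 := fun h => by rw [h, orderOf_one] at hζC; exact hq.one_lt.ne hζC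
    refine ⟨inr ζC, inl (Multiplicative.ofAdd 1) * inr ζC⁻¹, hqpow _ (by simpa using hζne),
      hqpow _ (by simpa using hζne), ?_⟩
    rw [← mul_assoc, map_inv, conj_inl, right_inr, act_apply, toAdd_ofAdd, mul_one]
    intro h
    have h1 : orderOf (inl (Multiplicative.ofAdd (((ζC : C) : Kˣ) : K)) : Multiplicative K ⋊[act C] C) = 1 :=
      Nat.eq_one_of_dvd_coprimes ((Nat.coprime_primes hq hr).2 (Ne.symm hrq)) (orderOf_dvd_of_pow_eq_one h)
        (orderOf_dvd_of_pow_eq_one (by rw [← map_pow, hVr, map_one]))
    rw [orderOf_eq_one_iff] at h1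
    have := congrArg Multiplicative.toAdd (inl_injective (h1.trans inl.map_one.symm))
    rw [toAdd_ofAdd, toAdd_one] at this
    exact Units.ne_zero _ this

end CfsgLib.MinFrob
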